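import Mathlib
import Cfsg.Agent.Lib.Helper63.BB.Defs

/-!
# S4144 (BB) package [ENGEL] (helper48): exponent `p` and class `≤ p` imply the
`(p-1)`-Engel identity
-/

set_option autoImplicit false

namespace Cfsg.Agent.Lib.Helper48.BB

open Cfsg.Agent.Lib.Helper63.MC
open Cfsg.Agent.Lib.Helper63.BB

universe u

section general

variable {G : Type u} [Group G]

theorem cs_one_right (x : G) (j : ℕ) : cs x 1 j = 1 := by
  induction j with
  | zero => rfl
  | succ j ih =>
    show (cs x 1 j)⁻¹ * (x * cs x 1 j * x⁻¹) = 1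
    rw [ih]
    group

/-- `cs` in a power of `G` is computed pointwise -/
theorem cs_pi_apply {ι : Type} (x y : ι → G) (j : ℕ) (a : ι) :
    cs x y j a = cs (x a) (y a) j := by
  induction j with
  | zero => rfl
  | succ j ih =>
    show ((cs x y j)⁻¹ * (x * cs x y j * x⁻¹)) a = (cs (x a) (y a) j)⁻¹ *
      (x a * cs (x a) (y a) j * (x a)⁻¹)
    simp only [Pi.mul_apply, Pi.inv_apply, ih]

/-- `NC x y` is normalized by `x` -/
theorem conj_mem_NC (x y : G) {n : G} (hn : n ∈ NC x y) : x * n * x⁻¹ ∈ NC x y := by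
  unfold NC at hn ⊢
  induction hn using Subgroup.closure_induction with
  | mem g hg =>
    obtain ⟨i, rfl⟩ := hg
    apply Subgroup.subset_closure
    refine ⟨i + 1, ?_⟩
    show x ^ (i + 1) * y * (x ^ (i + 1))⁻¹ = x * (x ^ i * y * (x ^ i)⁻¹) * x⁻¹
    rw [pow_succ']
    group
  | one =>
    have h : x * 1 * x⁻¹ = 1 := by group
    rw [h]
    exact Subgroup.one_mem _
  | mul a b _ _ ha hb =>
    have h : x * (a * b) * x⁻¹ = (x * a * x⁻¹) * (x * b * x⁻¹) := by group
    rw [h]
    exact Subgroup.mul_mem _ ha hb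
  | inv a _ ha =>
    have h : x * a⁻¹ * x⁻¹ = (x * a * x⁻¹)⁻¹ := by group
    rw [h]
    exact Subgroup.inv_mem _ ha

theorem cs_mem_NC (x y : G) (j : ℕ) : cs x y j ∈ NC x y := by
  induction j with
  | zero =>
    apply Subgroup.subset_closure
    refine ⟨0, ?_⟩
    show x ^ 0 * y * (x ^ 0)⁻¹ = y
    simp
  | succ j ih =>
    show (cs x y j)⁻¹ * (x * cs x y j * x⁻¹) ∈ NC x y
    exact Subgroup.mul_mem _ (Subgroup.inv_mem _ ih) (conj_mem_NC x y ih)

/-- at the top of the lower central series `cs x · (p-1)` is multiplicative -/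
theorem cs_pow_top (hML : PkgMultLin.{u}) (x y : G) (p : ℕ) (hp : 1 ≤ p) (hL : L G p = ⊥)
    (m : ℕ) : cs x (y ^ m) (p - 1) = (cs x y (p - 1)) ^ m := by
  have hmul : ∀ g h : G, cs x (g * h) (p - 1) = cs x g (p - 1) * cs x h (p - 1) := by
    intro g h
    have h1 := hML G x g h (p - 1)
    have h2 : p - 1 + 1 = p := by omega
    rw [h2, hL, Subgroup.mem_bot] at h1
    exact mul_inv_eq_one.mp h1
  induction m with
  | zero =>
    rw [pow_zero, pow_zero]
    exact cs_one_right x (p - 1)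
  | succ m ih => rw [pow_succ, pow_succ, hmul, ih]

/-- an endomorphism raising the generators of `NC x y` to the `b`-th power preserves `NC x y` -/
theorem NC_endo_mem (θ : G →* G) (x y : G) (b : ℕ)
    (hgen : ∀ i : ℕ, θ (x ^ i * y * (x ^ i)⁻¹) = (x ^ i * y * (x ^ i)⁻¹) ^ b) :
    ∀ n ∈ NC x y, θ n ∈ NC x y := by
  intro n hn
  unfold NC at hn ⊢
  induction hn using Subgroup.closure_induction with
  | mem g hg =>
    obtain ⟨i, rfl⟩ := hg
    show θ (x ^ i * y * (x ^ i)⁻¹) ∈ _
    rw [hgen]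
    exact Subgroup.pow_mem _ (Subgroup.subset_closure (Set.mem_range_self i)) _
  | one =>
    rw [map_one]
    exact Subgroup.one_mem _
  | mul a c _ _ ha hc =>
    rw [map_mul]
    exact Subgroup.mul_mem _ ha hc
  | inv a _ ha =>
    rw [map_inv]
    exact Subgroup.inv_mem _ ha

/-- ... and induces the `b`-th power modulo the derived subgroup of `NC x y` -/
theorem NC_endo_pow (θ : G →* G) (x y : G) (b : ℕ)
    (hgen : ∀ i : ℕ, θ (x ^ i * y * (x ^ i)⁻¹) = (x ^ i * y * (x ^ i)⁻¹) ^ b) :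
    ∀ n ∈ NC x y, θ n * (n ^ b)⁻¹ ∈ (NC x y).lowerCentralSeries 1 := by
  have hθN := NC_endo_mem θ x y b hgen
  have key : ∀ n (hn : n ∈ NC x y),
      (Abelianization.of : ↥(NC x y) →* Abelianization ↥(NC x y))
        (⟨θ n, hθN n hn⟩ : ↥(NC x y)) =
      (Abelianization.of : ↥(NC x y) →* Abelianization ↥(NC x y)) ⟨n, hn⟩ ^ b := by
    intro n hn
    refine Subgroup.closure_induction
      (p := fun n hn => ∀ hn' : n ∈ NC x y, ∀ hn'' : θ n ∈ NC x y,
        (Abelianization.of : ↥(NC x y) →* Abelianization ↥(NC x y))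
          (⟨θ n, hn''⟩ : ↥(NC x y)) =
        (Abelianization.of : ↥(NC x y) →* Abelianization ↥(NC x y)) ⟨n, hn'⟩ ^ b)
      ?_ ?_ ?_ ?_ hn hn (hθN n hn)
    · rintro g ⟨i, rfl⟩ h1 h2
      rw [← map_pow]
      congr 1
      exact Subtype.ext (hgen i)
    · intro h1 h2
      have e1 : (⟨θ 1, h2⟩ : ↥(NC x y)) = 1 := Subtype.ext (map_one θ)
      have e2 : (⟨1, h1⟩ : ↥(NC x y)) = 1 := rfl
      rw [e1, e2, map_one, one_pow]
    · intro a c ha hc iha ihc h1 h2
      have ha' : a ∈ NC x y := ha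
      have hc' : c ∈ NC x y := hc
      have e1 : (⟨θ (a * c), h2⟩ : ↥(NC x y)) =
          ⟨θ a, hθN a ha'⟩ * ⟨θ c, hθN c hc'⟩ := Subtype.ext (map_mul θ a c)
      have e2 : (⟨a * c, h1⟩ : ↥(NC x y)) = ⟨a, ha'⟩ * ⟨c, hc'⟩ := rfl
      rw [e1, e2, map_mul, map_mul, mul_pow, iha ha' (hθN a ha'), ihc hc' (hθN c hc')]
    · intro a ha iha h1 h2
      have ha' : a ∈ NC x y := ha
      have e1 : (⟨θ a⁻¹, h2⟩ : ↥(NC x y)) = (⟨θ a, hθN a ha'⟩ : ↥(NC x y))⁻¹ :=
        Subtype.ext (map_inv θ a)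
      have e2 : (⟨a⁻¹, h1⟩ : ↥(NC x y)) = (⟨a, ha'⟩ : ↥(NC x y))⁻¹ := rfl
      rw [e1, e2, map_inv, map_inv, inv_pow, iha ha' (hθN a ha')]
  intro n hn
  have h1 := key n hn
  have h2 : (⟨θ n, hθN n hn⟩ : ↥(NC x y)) * ((⟨n, hn⟩ : ↥(NC x y)) ^ b)⁻¹ ∈
      (Abelianization.of : ↥(NC x y) →* Abelianization ↥(NC x y)).ker := by
    rw [MonoidHom.mem_ker, map_mul, map_inv, map_pow, h1]
    exact mul_inv_cancel _
  rw [Abelianization.ker_of] at h2
  have h3 := Subgroup.mem_map_of_mem (NC x y).subtype h2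
  rw [Subgroup.map_subtype_commutator] at h3
  exact h3

end general

section power

variable {G : Type u} [Group G]

/-- the constant function `x` -/
def engelX (p : ℕ) (x : G) : (ZMod p)ˣ → G := fun _ => x

/-- `a ↦ y ^ a` -/
def engelY (p : ℕ) (y : G) : (ZMod p)ˣ → G := fun a => y ^ (a : ZMod p).val

/-- the shift `f ↦ (a ↦ f (b a))` -/
def engelShift (p : ℕ) (G : Type u) [Group G] (b : (ZMod p)ˣ) :
    ((ZMod p)ˣ → G) →* ((ZMod p)ˣ → G) where
  toFun f a := f (b * a)
  map_one' := rfl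
  map_mul' _ _ := rfl

theorem engelShift_apply (p : ℕ) (b : (ZMod p)ˣ) (f : (ZMod p)ˣ → G) (a : (ZMod p)ˣ) :
    engelShift p G b f a = f (b * a) := rfl

theorem engelShift_X (p : ℕ) (b : (ZMod p)ˣ) (x : G) :
    engelShift p G b (engelX p x) = engelX p x := rfl

theorem val_units_mul (p : ℕ) (a b : (ZMod p)ˣ) :
    ((b * a : (ZMod p)ˣ) : ZMod p).val = ((a : ZMod p).val * (b : ZMod p).val) % p := by
  rw [Units.val_mul, ZMod.val_mul, mul_comm]

theorem engelShift_Y (p : ℕ) (b : (ZMod p)ˣ) (y : G) (hy : y ^ p = 1) :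
    engelShift p G b (engelY p y) = engelY p y ^ (b : ZMod p).val := by
  funext a
  show y ^ ((b * a : (ZMod p)ˣ) : ZMod p).val = (y ^ (a : ZMod p).val) ^ (b : ZMod p).val
  rw [val_units_mul, ← pow_mul, ← pow_eq_pow_mod _ hy]

theorem engelShift_gen (p : ℕ) (b : (ZMod p)ˣ) (x y : G) (hy : y ^ p = 1) (i : ℕ) :
    engelShift p G b (engelX p x ^ i * engelY p y * (engelX p x ^ i)⁻¹) =
      (engelX p x ^ i * engelY p y * (engelX p x ^ i)⁻¹) ^ (b : ZMod p).val := by
  rw [map_mul, map_mul, map_inv, map_pow, engelShift_X, engelShift_Y p b y hy, conj_pow]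

end power

/-- **[ENGEL]** -/
theorem pkgEngel_of (hML : PkgMultLin.{u}) (hSC : PkgScale.{u}) (hEB : PkgEngelBase.{u})
    (hNCL : PkgNCLcs.{u}) : PkgEngel.{u} := by
  intro G _ p hp hexp hL x y
  have : Fact p.Prime := ⟨hp⟩
  have : Fact (1 < p) := ⟨hp.one_lt⟩
  have hp2 := hp.two_le
  have hcp : (cs x y (p - 1)) ^ p = 1 := hexp _
  -- the power group
  have hexpt : ∀ f : (ZMod p)ˣ → G, f ^ p = 1 := by
    intro f
    funext a
    rw [Pi.pow_apply]
    exact hexp (f a)
  have hLt : L ((ZMod p)ˣ → G) p = ⊥ := by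
    rw [eq_bot_iff]
    refine (Subgroup.top_lowerCentralSeries_pi_le (Gs := fun _ : (ZMod p)ˣ => G) p).trans ?_
    rw [le_bot_iff, Subgroup.pi_eq_bot_iff]
    intro a
    exact hL
  -- the element `ct`
  have hct : ∀ a : (ZMod p)ˣ, cs (engelX p x) (engelY p y) (p - 1) a =
      (cs x y (p - 1)) ^ (a : ZMod p).val := by
    intro a
    rw [cs_pi_apply]
    exact cs_pow_top hML x y p (by omega) hL _
  have hctN : cs (engelX p x) (engelY p y) (p - 1) ∈ NC (engelX p x) (engelY p y) :=
    cs_mem_NC _ _ _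
  -- a generator of the units
  obtain ⟨b, hb⟩ := IsCyclic.exists_generator (α := (ZMod p)ˣ)
  have hbord : orderOf b = p - 1 := by
    rw [orderOf_eq_card_of_forall_mem_zpowers hb, Nat.card_eq_fintype_card, ZMod.card_units]
  have hgen := engelShift_gen p b x y (hexp y)
  have hθN := NC_endo_mem (engelShift p G b) (engelX p x) (engelY p y) _ hgen
  have hθ1 := NC_endo_pow (engelShift p G b) (engelX p x) (engelY p y) _ hgen
  have hπct : engelShift p G b (cs (engelX p x) (engelY p y) (p - 1)) =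
      cs (engelX p x) (engelY p y) (p - 1) ^ (b : ZMod p).val := by
    funext a
    rw [engelShift_apply, Pi.pow_apply, hct, hct, ← pow_mul, val_units_mul,
      ← pow_eq_pow_mod _ hcp]
  -- the claim
  have claim : ∀ k, 1 ≤ k → k ≤ p - 1 → cs (engelX p x) (engelY p y) (p - 1) ∈
      (NC (engelX p x) (engelY p y)).lowerCentralSeries k := by
    intro k
    induction k with
    | zero => intro h; omega
    | succ k ih =>
      intro _ hkp
      rcases Nat.eq_zero_or_pos k with hk0 | hkpos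
      · subst hk0
        exact hEB _ p hp hexpt (engelX p x) (engelY p y)
      · have ihk := ih hkpos (by omega)
        have h1 := hSC _ (NC (engelX p x) (engelY p y)) (engelShift p G b) _ hθN hθ1 k _ ihk
        rw [hπct] at h1
        -- the exponent is prime to `p`
        have hnd : ¬ (p : ℤ) ∣ (((b : ZMod p).val : ℤ) - ((b : ZMod p).val : ℤ) ^ (k + 1)) := by
          intro hdvd
          have h2 := (ZMod.intCast_zmod_eq_zero_iff_dvd _ p).mpr hdvd
          push_cast at h2
          rw [ZMod.natCast_zmod_val, sub_eq_zero] at h2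
          have h3 : b ^ (k + 1) = b := by
            apply Units.ext
            rw [Units.val_pow_eq_pow_val]
            exact h2.symm
          have h4 : b ^ k = 1 := by
            rw [pow_succ] at h3
            exact mul_right_cancel (h3.trans (one_mul b).symm)
          have h5 := orderOf_dvd_of_pow_eq_one h4
          rw [hbord] at h5
          have h6 := Nat.le_of_dvd hkpos h5
          omega
        have hcop : IsCoprime (p : ℤ)
            (((b : ZMod p).val : ℤ) - ((b : ZMod p).val : ℤ) ^ (k + 1)) :=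
          (Nat.prime_iff_prime_int.mp hp).coprime_iff_not_dvd.mpr hnd
        obtain ⟨u, v, huv⟩ := hcop
        have h7 : cs (engelX p x) (engelY p y) (p - 1) ^
            (((b : ZMod p).val : ℤ) - ((b : ZMod p).val : ℤ) ^ (k + 1)) ∈
            (NC (engelX p x) (engelY p y)).lowerCentralSeries (k + 1) := by
          rw [zpow_sub, zpow_natCast]
          have h8 : ((b : ZMod p).val : ℤ) ^ (k + 1) = (((b : ZMod p).val ^ (k + 1) : ℕ) : ℤ) := by
            push_cast
            rfl
          rw [h8, zpow_natCast]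
          exact h1
        have h9 : cs (engelX p x) (engelY p y) (p - 1) =
            (cs (engelX p x) (engelY p y) (p - 1) ^
              (((b : ZMod p).val : ℤ) - ((b : ZMod p).val : ℤ) ^ (k + 1))) ^ v := by
          rw [← zpow_mul, mul_comm]
          have h10 : v * (((b : ZMod p).val : ℤ) - ((b : ZMod p).val : ℤ) ^ (k + 1)) =
              1 - u * (p : ℤ) := by linarith
          rw [h10, zpow_sub, zpow_one, zpow_mul, zpow_natCast, hexpt, inv_one, mul_one]
        rw [h9]
        exact Subgroup.zpow_mem _ h7 v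
  have h1 := claim (p - 1) (by omega) le_rfl
  have h2 := hNCL _ (engelX p x) (engelY p y) (p - 1) (by omega) h1
  have h3 : p - 1 + 1 = p := by omega
  rw [h3, hLt, Subgroup.mem_bot] at h2
  have h4 := hct 1
  rw [h2, Units.val_one, ZMod.val_one, pow_one] at h4
  exact h4.symm

end Cfsg.Agent.Lib.Helper48.BB
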