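import Mathlib
import Cfsg.Agent.Lib.Helper63.BB.Defs

/-!
# S4144 (BB) package [T2] (helper48): a group of maximal class of order `p ^ (p+1)` is not of
exponent `p`
-/

set_option autoImplicit false

namespace Cfsg.Agent.Lib.Helper48.BB

open Cfsg.Agent.Lib.Helper63.MC
open Cfsg.Agent.Lib.Helper63.BB

universe u

/-- **[T2]** -/
theorem pkgExpP_of (hE : PkgEngel.{u}) (hUEX : PkgUnifEx.{u}) (hUCH : PkgUnifChain.{u}) :
    PkgExpP.{u} := by
  intro X _ _ p _ hp2 hcard hcls
  have hp : p.Prime := Fact.out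
  have hp3 : 3 ≤ p := by
    have := hp.two_le
    omega
  have hP : IsPGroup p X := IsPGroup.of_card hcard
  haveI hnil : Group.IsNilpotent X := hP.isNilpotent
  by_contra hcon
  push_neg at hcon
  have hLp : L X p = ⊥ :=
    Subgroup.lowerCentralSeries_eq_bot_iff_nilpotencyClass_le.mpr (le_of_eq hcls)
  have hexp : ∀ g : X, g ^ p = 1 := by
    intro g
    have h1 := hcon g
    rw [hLp, Subgroup.mem_bot] at h1
    exact h1
  have hcls' : Group.nilpotencyClass X = (p + 1) - 1 := hcls
  obtain ⟨s, hs⟩ := hUEX X p (p + 1) (by omega) hcard hcls' (Or.inl (by omega))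
  obtain ⟨y, hy⟩ := hUCH X p (p + 1) (by omega) hcard hcls' s hs
  have h1 := hy (p - 1) (by omega) (by omega)
  have h2 : p - 1 + 1 = p := by omega
  rw [h2] at h1
  apply h1
  rw [hE X p hp hexp hLp s y]
  exact Subgroup.one_mem _

end Cfsg.Agent.Lib.Helper48.BB
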