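import Mathlib
import Cfsg.Agent.Lib.Helper63.BB.Defs
import Cfsg.Agent.Lib.Helper59.MC.Struct
import Cfsg.Agent.Lib.Helper67.MC.Quot

/-!
# S4144 (BB) package [TOP] (helper48): maximal class of order `p ^ n`, `n ≥ p + 2`: some `p`-th
power is outside `L p`
-/

set_option autoImplicit false

namespace Cfsg.Agent.Lib.Helper48.BB

open Cfsg.Agent.Lib.Helper63.MC
open Cfsg.Agent.Lib.Helper63.BB

universe u

/-- **[TOP]** -/
theorem pkgTop_of (hA : PkgA.{u}) (hUEX : PkgUnifEx.{u}) (hPS : PkgPowStr.{u}) :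
    PkgTop.{u} := by
  intro X _ _ p _ n hp2 hn hcard hcls
  have hp : p.Prime := Fact.out
  have hp3 : 3 ≤ p := by
    have := hp.two_le
    omega
  obtain ⟨hQcard, hQcls⟩ := Cfsg.Agent.Lib.Helper67.MC.pkgQuot_of
    Cfsg.Agent.Lib.Helper59.MC.pkgStruct X p n (p + 2) (by omega) hn hcard hcls
  have hQcls' : Group.nilpotencyClass (X ⧸ L X (p + 2 - 1)) = p + 1 := hQcls
  obtain ⟨s, hs⟩ := hUEX (X ⧸ L X (p + 2 - 1)) p (p + 2) (by omega) hQcard hQcls
    (Or.inl (by omega))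
  have hPow := hPS (X ⧸ L X (p + 2 - 1)) p (p + 2) (by omega) hQcard hQcls s hs
  obtain ⟨-, gb, hgb⟩ := hA (X ⧸ L X (p + 2 - 1)) p hQcard hQcls' hPow
  obtain ⟨g, rfl⟩ := QuotientGroup.mk_surjective gb
  refine ⟨g, fun hg => hgb ?_⟩
  have hmap : L (X ⧸ L X (p + 2 - 1)) p =
      (L X p).map (QuotientGroup.mk' (L X (p + 2 - 1))) := by
    rw [Subgroup.map_lowerCentralSeries,
      Subgroup.map_top_of_surjective _ (QuotientGroup.mk'_surjective (L X (p + 2 - 1)))]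
  rw [hmap]
  exact ⟨g ^ p, hg, rfl⟩

end Cfsg.Agent.Lib.Helper48.BB
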